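import Cfsg.Agent.H82.TwD4

/-!
# Field facts for the overgroups of `³D₄(q₀)` (S2187, X6; helper972)

`card K = q ^ 3`, `q = q₀ ^ p`, `p ≠ 3` prime, `φ t = t ^ q`, `ψ t = t ^ (q₀ ^ 3)`.

* `exists_kappa` : `ψ κ = κ`, `φ κ ≠ κ`;
* `indep` : Dedekind independence of `1, φ, φ²` on the fixed field of `ψ`;
* `fix_min` : a subring of `Fix φ` containing `Fix φ ∩ Fix ψ` and an element not fixed by `ψ` contains `Fix φ`.
-/

set_option autoImplicit false

namespace Cfsg.Agent.H972.TwOv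

open Cfsg.Lie

universe u

variable {K : Type u} [Field K]

/-- an element fixed by two coprime powers of a bijection is fixed -/
theorem fix_of_coprime {q₀ p : ℕ} (hp : ¬ 3 ∣ p) {t : K} (h1 : t ^ (q₀ ^ 3) = t) (h2 : t ^ (q₀ ^ p) = t) :
    t ^ q₀ = t := by
  have mul : ∀ (m n : ℕ), t ^ (q₀ ^ m) = t → t ^ (q₀ ^ (m * n)) = t := by
    intro m n hm
    induction n with
    | zero => rw [mul_zero, pow_zero, pow_one]
    | succ n ih => rw [mul_add, mul_one, pow_add, pow_mul, ih, hm]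
  have sub : ∀ (m n : ℕ), t ^ (q₀ ^ m) = t → t ^ (q₀ ^ (m + n)) = t → t ^ (q₀ ^ n) = t := by
    intro m n hm hmn
    rwa [pow_add, pow_mul, hm] at hmn
  have h3 := mul 3 (p / 3) h1
  have h4 : t ^ (q₀ ^ (3 * (p / 3) + p % 3)) = t := by rw [Nat.div_add_mod]; exact h2
  have h5 := sub _ _ h3 h4
  have h6 : p % 3 = 1 ∨ p % 3 = 2 := by omega
  rcases h6 with h6 | h6
  · rw [h6, pow_one] at h5
    exact h5
  · rw [h6] at h5
    have h7 := sub 2 1 h5 h1
    rwa [pow_one] at h7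

section

variable [Fintype K] {q₀ p q : ℕ} {φ ψ : K →+* K} (hq₀ : 1 < q₀) (hp : ¬ 3 ∣ p) (hq : q = q₀ ^ p)
  (hK : Fintype.card K = q ^ 3) (hφ : ∀ t, φ t = t ^ q) (hψ : ∀ t, ψ t = t ^ (q₀ ^ 3))

include hq₀ hp hq hK hφ hψ

/-- a parameter of the subfield group which is not fixed by `φ` -/
theorem exists_kappa : ∃ κ : K, ψ κ = κ ∧ φ κ ≠ κ := by
  by_contra hcon
  push Not at hcon
  have hcK : Fintype.card K = q₀ ^ (3 * p) := by rw [hK, hq, ← pow_mul, mul_comm]
  have hcK' : Fintype.card K = (q₀ ^ 3) ^ p := by rw [hcK, pow_mul]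
  obtain ⟨r, hr⟩ := CharP.exists K
  have hrp : r.Prime := CharP.char_is_prime K r
  have : Fact r.Prime := ⟨hrp⟩
  have hq₀r : ∃ a, q₀ = r ^ a := by
    obtain ⟨n, -, hn⟩ := FiniteField.card K r
    rw [hcK] at hn
    have h1 : q₀ ∣ r ^ (n : ℕ) := by
      rw [← hn]
      refine dvd_pow_self q₀ ?_
      rintro h
      have : p = 0 := by omega
      exact hp (by rw [this]; exact dvd_zero 3)
    obtain ⟨a, -, ha⟩ := (Nat.dvd_prime_pow hrp).1 h1
    exact ⟨a, ha⟩
  obtain ⟨a, ha⟩ := hq₀r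
  have : ExpChar K r := ExpChar.prime hrp
  have hθ : ∀ t : K, iterateFrobenius K r a t = t ^ q₀ := fun t => by rw [iterateFrobenius_def, ha]
  have h1 := ChevalleyStructure.D4U.card_fix_field (q := q₀) hq₀ hcK hθ
  have h2 := ChevalleyStructure.D4U.card_fix_field (q := q₀ ^ 3) (Nat.one_lt_pow (by norm_num) hq₀) hcK' hψ
  have h3 : Nat.card {a : K // ψ a = a} ≤ Nat.card {b : K // iterateFrobenius K r a b = b} := by
    refine Nat.card_le_card_of_injective (fun x => ⟨x.1, ?_⟩) ?_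
    · rw [hθ]
      refine fix_of_coprime hp ?_ ?_
      · rw [← hψ]; exact x.2
      · rw [← hq, ← hφ]; exact hcon _ x.2
    · intro x y hxy
      have h5 : (x : K) = y := congrArg (fun z : {b : K // iterateFrobenius K r a b = b} => (z : K)) hxy
      exact Subtype.ext h5
  rw [h1, h2] at h3
  have h4 : q₀ ^ 1 < q₀ ^ 3 := Nat.pow_lt_pow_right hq₀ (by norm_num)
  rw [pow_one] at h4
  omega

omit hq₀ hp hq in
/-- Dedekind independence -/
theorem indep_of {κ : K} (h1 : ψ κ = κ) (h2 : φ κ ≠ κ) {B₁ B₂ B₃ : K}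
    (hB : ∀ a, ψ a = a → a * B₁ + φ a * B₂ + φ (φ a) * B₃ = 0) : B₁ = 0 ∧ B₂ = 0 ∧ B₃ = 0 := by
  have hφ3 := ChevalleyStructure.D4U.phi3 hK hφ
  have hc : ∀ t, ψ (φ t) = φ (ψ t) := fun t => by rw [hφ, hψ, hψ, hφ, ← pow_mul, ← pow_mul, mul_comm]
  obtain ⟨k, hk⟩ : ∃ k : Subfield K, k = RingHom.eqLocusField ψ (RingHom.id K) := ⟨_, rfl⟩
  have hmem : ∀ t, t ∈ k ↔ ψ t = t := fun t => by rw [hk]; exact RingHom.mem_eqLocusField
  let f0 : k →* K := (k.subtype : k →* K)
  let f1 : k →* K := (φ : K →* K).comp (k.subtype : k →* K)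
  let f2 : k →* K := (φ : K →* K).comp ((φ : K →* K).comp (k.subtype : k →* K))
  let κ' : k := ⟨κ, (hmem κ).2 h1⟩
  have e01 : f0 ≠ f1 := fun h => h2 (DFunLike.congr_fun h κ').symm
  have e12 : f1 ≠ f2 := fun h => h2 (φ.injective (DFunLike.congr_fun h κ')).symm
  have e02 : f0 ≠ f2 := fun h => by
    have h3 : κ = φ (φ κ) := DFunLike.congr_fun h κ'
    apply h2
    have h4 := congrArg φ h3
    rw [hφ3] at h4
    exact h4
  have hli := linearIndependent_monoidHom k K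
  have hinj : Function.Injective ![f0, f1, f2] := by
    intro i j hij
    fin_cases i <;> fin_cases j <;> first | rfl | skip
    · exact absurd hij e01
    · exact absurd hij e02
    · exact absurd hij e01.symm
    · exact absurd hij e12
    · exact absurd hij e02.symm
    · exact absurd hij e12.symm
  have h3 := hli.comp ![f0, f1, f2] hinj
  rw [Fintype.linearIndependent_iff] at h3
  have h4 := h3 ![B₁, B₂, B₃] (by
    funext a
    rw [Fin.sum_univ_three]
    have h5 := hB a ((hmem _).1 a.2)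
    show B₁ * (a : K) + B₂ * φ a + B₃ * φ (φ a) = 0
    linear_combination h5)
  exact ⟨h4 0, h4 1, h4 2⟩

/-- a subring of `Fix φ` containing the rational elements and another one is everything -/
theorem fix_min (hpp : p.Prime) {S : Set K} (h1 : ∀ t, φ t = t → ψ t = t → t ∈ S) (hadd : ∀ s ∈ S, ∀ t ∈ S, s + t ∈ S)
    (hmul : ∀ s ∈ S, ∀ t ∈ S, s * t ∈ S) {t₀ : K} (ht₀ : t₀ ∈ S) (ht₀φ : φ t₀ = t₀) (ht₀ψ : ψ t₀ ≠ t₀) :
    ∀ t, φ t = t → t ∈ S := by
  obtain ⟨F, hF⟩ : ∃ F : Subfield K, F = RingHom.eqLocusField φ (RingHom.id K) := ⟨_, rfl⟩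
  have hmF : ∀ t, t ∈ F ↔ φ t = t := fun t => by rw [hF]; exact RingHom.mem_eqLocusField
  obtain ⟨F₀, hF₀⟩ : ∃ F₀ : Subfield F, F₀ = (RingHom.eqLocusField ψ (RingHom.id K)).comap F.subtype := ⟨_, rfl⟩
  have hmF₀ : ∀ t : F, t ∈ F₀ ↔ ψ (t : K) = t := fun t => by
    rw [hF₀, Subfield.mem_comap]; exact RingHom.mem_eqLocusField
  have hq1 : 1 < q := by
    rw [hq]
    exact Nat.one_lt_pow hpp.ne_zero hq₀
  have hcF : Nat.card F = q := by
    have h2 := ChevalleyStructure.D4U.card_fix_field hq1 hK hφ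
    rw [← h2]
    exact Nat.card_congr (Equiv.subtypeEquivRight fun t => hmF t)
  have hcF₀ : Nat.card F₀ = q₀ := by
    have hcK : Fintype.card K = q₀ ^ (3 * p) := by rw [hK, hq, ← pow_mul, mul_comm]
    obtain ⟨r, hr⟩ := CharP.exists K
    have hrp : r.Prime := CharP.char_is_prime K r
    have : Fact r.Prime := ⟨hrp⟩
    have hq₀r : ∃ a, q₀ = r ^ a := by
      obtain ⟨n, -, hn⟩ := FiniteField.card K r
      rw [hcK] at hn
      have h1 : q₀ ∣ r ^ (n : ℕ) := by
        rw [← hn]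
        refine dvd_pow_self q₀ ?_
        have := hpp.pos
        omega
      obtain ⟨a, -, ha⟩ := (Nat.dvd_prime_pow hrp).1 h1
      exact ⟨a, ha⟩
    obtain ⟨a, ha⟩ := hq₀r
    have : ExpChar K r := ExpChar.prime hrp
    have hθ : ∀ t : K, iterateFrobenius K r a t = t ^ q₀ := fun t => by rw [iterateFrobenius_def, ha]
    have h2 := ChevalleyStructure.D4U.card_fix_field (q := q₀) hq₀ hcK hθ
    rw [← h2]
    refine Nat.card_congr ⟨fun x => ⟨((x : F) : K), ?_⟩, fun y => ⟨⟨y.1, ?_⟩, ?_⟩, fun x => rfl, fun y => rfl⟩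
    · rw [hθ]
      refine fix_of_coprime hp ?_ ?_
      · rw [← hψ]; exact (hmF₀ _).1 x.2
      · rw [← hq, ← hφ]; exact (hmF _).1 x.1.2
    · have h3 := y.2
      rw [hθ] at h3
      rw [hmF, hφ, hq]
      have : ∀ n : ℕ, (y.1 : K) ^ (q₀ ^ n) = y.1 := by
        intro n
        induction n with
        | zero => rw [pow_zero, pow_one]
        | succ n ih => rw [pow_succ, pow_mul, ih, h3]
      exact this p
    · have h3 := y.2
      rw [hθ] at h3
      rw [hmF₀, hψ]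
      have : ∀ n : ℕ, (y.1 : K) ^ (q₀ ^ n) = y.1 := by
        intro n
        induction n with
        | zero => rw [pow_zero, pow_one]
        | succ n ih => rw [pow_succ, pow_mul, ih, h3]
      exact this 3
  have hfin : Module.finrank F₀ F = p := by
    have h2 := Module.natCard_eq_pow_finrank (K := F₀) (V := F)
    rw [hcF, hcF₀, hq] at h2
    exact (Nat.pow_right_injective hq₀ h2).symm
  have hs : IsSimpleOrder (Subalgebra F₀ F) :=
    Subalgebra.isSimpleOrder_of_finrank_prime F₀ F (by rw [hfin]; exact hpp)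
  let A : Subalgebra F₀ F :=
    { carrier := {t : F | (t : K) ∈ S}
      mul_mem' := fun {a b} ha hb => hmul _ ha _ hb
      add_mem' := fun {a b} ha hb => hadd _ ha _ hb
      algebraMap_mem' := fun x => h1 _ ((hmF _).1 x.1.2) ((hmF₀ _).1 x.2) }
  have hA : ∀ t : F, t ∈ A ↔ (t : K) ∈ S := fun t => Iff.rfl
  rcases hs.eq_bot_or_eq_top A with h | h
  · exfalso
    have h2 : (⟨t₀, (hmF _).2 ht₀φ⟩ : F) ∈ A := ht₀
    rw [h, Algebra.mem_bot] at h2
    obtain ⟨x, hx⟩ := h2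
    apply ht₀ψ
    have h3 : ((x : F) : K) = t₀ := congrArg Subtype.val hx
    rw [← h3]
    exact (hmF₀ _).1 x.2
  · intro t ht
    have h2 : (⟨t, (hmF _).2 ht⟩ : F) ∈ A := by rw [h]; exact Algebra.mem_top
    exact h2

end

end Cfsg.Agent.H972.TwOv
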