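import Cfsg.Agent.H972.TwOv.Full
import Cfsg.Agent.H28.TwOv.Final

/-!
# `³D₄`: the overgroup theorem up to the opposite case (S2187, X6; helper972)

* `clsP`, `betaP`, `ovh` : the structures of `H28.TwOv` for `chevD4`;
* `key` : the chain `23, 22`;
* `fixed_d4` : `H28.TwOv.over_fixed` for `chevD4`.
-/

set_option autoImplicit false

namespace Cfsg.Agent.H972.TwOv

open Cfsg.Lie Cfsg.Agent.ChevalleyStructure Cfsg.Agent.H82.Level Cfsg.Agent.H82.TwMax Cfsg.Agent.H28.TwOv
open Cfsg.Agent.ChevalleyStructure.RootCombGood (co car)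
open Cfsg.Agent.ChevalleyStructure.RootWord (wact)
open Cfsg.Agent.ChevalleyStructure.TwistedU
open Cfsg.Agent.ChevalleyStructure.D4Fixed (sig fix mem_fix twisted_le_fix)
open Cfsg.Agent.ChevalleyStructure.D4U (na nb na_mem nb_mem phi3)
open Cfsg.Agent.H82.TwD4 (hD4 slD4 twD4 rho eps Lo cl pos_of_mem X X_zero X_eqU X_eq sig_X Xt_eq Xt_mem_U tw J
  cf_X cf_Xt ht_one cf_rspan na_eq nb_eq acts_na acts_nb)
open scoped commutatorElement

universe u

section

variable {K : Type u} [Field K] [Fintype K] {q₀ p q : ℕ} {φ ψ : K →+* K} (hq₀ : 1 < q₀) (hp : p.Prime) (hp3 : 3 < p)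
  (hq : q = q₀ ^ p) (hK : Fintype.card K = q ^ 3) (hφ : ∀ t, φ t = t ^ q) (hψ : ∀ t, ψ t = t ^ (q₀ ^ 3))
  {H : Subgroup (GL chevD4.Idx K)} (hHG : H ≤ twistedD4 K q)
  (hU : ∀ u ∈ chevD4.posUnipotent K, sig φ u = u → fr chevD4 ψ u = u → u ∈ H) (hna : na K ∈ H) (hnb : nb K ∈ H)

include hK hφ hψ hU hna hnb in
/-- **the classes** -/
theorem clsP : ClsP rho (twistedD4 K q) ψ J ![na K, nb K] H where
  rho_lt := twD4.rho_lt
  J_ne := by decide
  J_orth := by decide +kernel
  nhW := by
    intro i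
    fin_cases i
    · exact ⟨na_mem hφ, (D4Twisted.tdata hφ (twisted_le_fix hK hφ)).n_mem_N 0, by decide, acts_na,
        by decide +kernel⟩
    · exact ⟨nb_mem hφ, (D4Twisted.tdata hφ (twisted_le_fix hK hφ)).n_mem_N 1, by decide, acts_nb,
        by decide +kernel⟩
  nh_fr := by
    intro i
    fin_cases i
    · show fr chevD4 ψ (na K) = na K
      rw [na_eq, fr_nG]
    · show fr chevD4 ψ (nb K) = nb K
      rw [nb_eq, map_mul, map_mul, fr_nG, fr_nG, fr_nG]
  nh_mem := by
    intro i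
    fin_cases i
    · exact hna
    · exact hnb
  split := by
    intro i u hu huG hc
    have hf := twisted_le_fix hK hφ huG
    fin_cases i
    · obtain ⟨v, hv, t, ht, e⟩ := D4Twisted.decomp_a φ hu hf
      have hx : D4Comm.xG 14 t ∈ twistedD4 K q := D4U.xG14_mem hφ ht
      have hv' : v = u * (D4Comm.xG 14 t)⁻¹ := by rw [e]; group
      have hvG : v ∈ twistedD4 K q := by
        rw [hv']
        exact mul_mem huG (inv_mem hx)
      have hxU : D4Comm.xG 14 t ∈ chevD4.posUnipotent K :=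
        Elts.xG_mem_posUnipotent hD4 (r := 14) (pos_of_mem (by decide)) t
      have hvU : v ∈ chevD4.posUnipotent K := by
        rw [hv']
        exact mul_mem hu (inv_mem hxU)
      have h1 : cf 14 u = t := by
        have h2 : cf 14 v = 0 := cf_rspan hD4 slD4 (l := D4Pos.ordA.tail) (pos_of_mem (by decide))
          (ht_one (by decide)) (by
            have : ∀ s ∈ D4Pos.ordA.tail, s ∈ Lo.flatten ∧ 14 ≠ s := by decide
            exact fun s hs => ⟨pos_of_mem (this s hs).1, (this s hs).2⟩) hv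
        rw [e, cf_mul_left hD4 slD4 (r := 14) (by rw [ht_one (by decide), Lv_one]; exact hvU) hxU, h2, ← X_eq,
          cf_X (by norm_num) (by norm_num)]
        simp
      have ht' : ψ t = t := by
        have := hc 1 (by decide)
        have e14 : chevD4.simple 1 = 14 := by decide +kernel
        rwa [e14, h1] at this
      exact ⟨v, D4Comm.xG 14 t, real_pos hU (by simp) ht ht', by rw [← X_eq, fr_X, ht'], hvG,
        D4Twisted.ordA_tail_conj hv, e⟩
    · obtain ⟨v, hv, t, e⟩ := D4Twisted.decomp_b φ hu hf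
      have hx : D4Fixed.X φ t ∈ twistedD4 K q := D4Fixed.X_mem hφ t
      have hvG : v ∈ twistedD4 K q := by
        have : v = u * (D4Fixed.X φ t)⁻¹ := by rw [e]; group
        rw [this]
        exact mul_mem huG (inv_mem hx)
      have hvU : v ∈ chevD4.posUnipotent K := by
        have : v = u * (D4Fixed.X φ t)⁻¹ := by rw [e]; group
        rw [this]
        exact mul_mem hu (inv_mem (Xt_mem_U t))
      have h1 : cf 18 u = t := by
        have h2 : cf 18 v = 0 := cf_rspan hD4 slD4 (l := D4Pos.ordB.drop 3) (pos_of_mem (by decide))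
          (ht_one (by decide)) (by
            have : ∀ s ∈ D4Pos.ordB.drop 3, s ∈ Lo.flatten ∧ 18 ≠ s := by decide
            exact fun s hs => ⟨pos_of_mem (this s hs).1, (this s hs).2⟩) hv
        rw [e, cf_mul_left hD4 slD4 (by rw [ht_one (by decide), Lv_one]; exact hvU) (Xt_mem_U t), h2,
          cf_Xt (by decide)]
        simp
      have ht : ψ t = t := by
        have := hc 0 (by decide)
        have e18 : chevD4.simple 0 = 18 := by decide +kernel
        rwa [e18, h1] at this
      have hc' : ∀ t, ψ (φ t) = φ (ψ t) := fun t => by rw [hφ, hψ, hψ, hφ, ← pow_mul, ← pow_mul, mul_comm]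
      refine ⟨v, D4Fixed.X φ t, Xt_mem hK hφ hψ hU ht, ?_, hvG, D4Twisted.ordB_drop_conj hv, e⟩
      rw [Xt_eq, map_mul, map_mul, fr_X, fr_X, fr_X, hc', hc', hc', ht]

include hq₀ hp hp3 hq hK hφ hψ hHG hU hna hnb in
/-- **the hypotheses on `H`** -/
theorem ovh (hne : H ≠ twistedD4 K q) : OvH (tw hφ hK) ψ (H86.Par.top chevD4) H := by
  have hp3' : ¬ 3 ∣ p := by
    intro h
    have := (Nat.prime_dvd_prime_iff_eq Nat.prime_three hp).1 h
    omega
  obtain ⟨κ, h1, h2⟩ := exists_kappa hq₀ hp3' hq hK hφ hψ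
  rw [top_eq]
  exact
    { ind := ind_d4 hK hφ hψ h1 h2
      top_pos := top_pos
      max := top_max
      climb := climb
      le := hHG
      memU := hU
      memX := fun t ht => by
        by_contra hcon
        exact hne (full_d4 hq₀ hp hp3 hq hK hφ hψ hHG hU hna hnb ht hcon) }

include hU hna hnb in
omit [Fintype K] in
/-- **the real root used for the Borel part** -/
theorem betaP : BetaP chevD4 hD4 φ ψ (sig φ) H 9 where
  lt := by decide
  ne := by rw [top_eq]; decide
  nen := by rw [top_eq]; decide +kernel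
  pos := by
    rw [top_eq]
    have : add chevD4 23 9 = 22 := by decide +kernel
    rw [this]
    exact pos_of_mem (by decide)
  sg_x := fun c => D4Twisted.sig_9 φ c
  mem := fun c h1 h2 => real_mem hU hna hnb (by simp) h1 h2

theorem wact_ne0 : ∀ γ < 24, ∀ o ∈ cl, (∀ j ∈ o, car chevD4 (chevD4.simple j) γ < 0) → γ ≠ 0 → wact chevD4 o γ ≠ 0 := by
  decide +kernel

theorem wact_ne1 : ∀ o ∈ cl, wact chevD4 o 23 ≠ 0 := by decide +kernel

include hK hφ hψ hU in
/-- **the chain** -/
theorem key (hA : ∀ u ∈ H, u ∈ chevD4.posUnipotent K → fr chevD4 ψ u = u) (w : List ℕ) (b n u : GL chevD4.Idx K)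
    (hb : b ∈ chevD4.borelSubgroup K) (hn : NW rho (twistedD4 K q) n w)
    (hu : u ∈ chevD4.posUnipotent K) (huG : u ∈ twistedD4 K q) (hg : b * n * u ∈ H) :
    (∀ i < chevD4.rank, chevD4.IsPosRoot (wact chevD4 w (chevD4.simple i))) ∨
      wact chevD4 w.reverse (H86.Par.top chevD4) = 0 ∨
      ∃ i, (∀ j ∈ J i, chevD4.IsNegRoot (wact chevD4 w (chevD4.simple j))) ∧
        (∀ j ∈ J i, ψ (cf (chevD4.simple j) u) = cf (chevD4.simple j) u) ∧
        wact chevD4 (J i) (wact chevD4 w.reverse (H86.Par.top chevD4)) ≠ 0 := by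
  have W := tw hφ hK
  have Gd := RootComb.good_of_mem hD4
  have hcφ : ∀ t, ψ (φ t) = φ (ψ t) := fun t => by rw [hφ, hψ, hψ, hφ, ← pow_mul, ← pow_mul, mul_comm]
  have h23H : X 23 (1 : K) ∈ H := real_pos hU (by simp) (map_one φ) (map_one ψ)
  have h22H : X 22 (1 : K) ∈ H := real_pos hU (by simp) (map_one φ) (map_one ψ)
  have hJ : ∀ o ∈ cl, ∃ i, J i = o := by decide
  have hwr : ∀ a ∈ w.reverse, a < chevD4.rank := fun a ha => hn.lt a (List.mem_reverse.1 ha)
  have hback : ∀ r < chevD4.nroots, wact chevD4 w.reverse r = r → wact chevD4 w r = r := by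
    intro r hr h
    have h1 := RootWord.wact_reverse' Gd hn.lt hr
    rw [h] at h1
    exact h1
  rw [top_eq]
  by_cases h0 : wact chevD4 w.reverse 23 = 0
  · exact Or.inr (Or.inl h0)
  by_cases h1 : wact chevD4 w.reverse 23 = 23
  · have hw23 := hback 23 (by decide) h1
    by_cases h2 : wact chevD4 w.reverse 22 = 22
    · exact Or.inl (last hn.lt hw23 (hback 22 (by decide) h2))
    · right
      right
      have h3 : wact chevD4 w.reverse 22 ≠ 0 := by
        intro h3
        have c0 := RootWord.car_wact Gd hwr (r := 22) (by decide) (s := 23) (by decide)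
        rw [h1, h3] at c0
        have c1 : car chevD4 0 23 ≠ car chevD4 22 23 := by decide +kernel
        exact c1 c0
      obtain ⟨o, ho, a1, a2, a3⟩ := stage W hcφ hA stageP1 H82.TwD4.lp1 cl_lt horb (by simp) (by simp) (by decide)
        (pos_of_mem (by decide)) rfl
        (by
          intro s hs h1
          have : ∀ s ∈ Lo.flatten, ht chevD4 s = ht chevD4 22 → s = 22 := by decide +kernel
          exact this s ((isPosRoot_iff twD4 s).2 hs) h1) h22H
        (by
          intro s hs h1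
          have : ∀ s ∈ Lo.flatten, ht chevD4 22 + 1 ≤ ht chevD4 s → s ∈ [23] := by decide +kernel
          exact this s ((isPosRoot_iff twD4 s).2 hs) h1) hb hn hu huG hg
        (by
          intro d hd
          rw [List.mem_singleton] at hd
          subst hd
          exact hw23) h2 h3
      obtain ⟨i, rfl⟩ := hJ o ho
      refine ⟨i, a1, a2, ?_⟩
      rw [h1]
      exact wact_ne1 _ ho
  · right
    right
    obtain ⟨o, ho, a1, a2, a3⟩ := stage W hcφ hA stageP0 H82.TwD4.lp0 cl_lt horb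
      (by
        intro β hβ
        rw [List.mem_singleton] at hβ
        subst hβ
        exact ⟨pos_of_mem (by decide), h23H⟩)
      (by
        intro _ s hs
        have : ∀ s ∈ Lo.flatten, ht chevD4 s ≤ ht chevD4 23 := by decide +kernel
        exact this s ((isPosRoot_iff twD4 s).2 hs)) (by simp) (pos_of_mem (by decide)) rfl
      (by
        intro s hs h1
        have : ∀ s ∈ Lo.flatten, ht chevD4 s = ht chevD4 23 → s = 23 := by decide +kernel
        exact this s ((isPosRoot_iff twD4 s).2 hs) h1) h23H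
      (by
        intro s hs h1
        have : ∀ s ∈ Lo.flatten, ¬ (ht chevD4 23 + 1 ≤ ht chevD4 s) := by decide +kernel
        exact absurd h1 (this s ((isPosRoot_iff twD4 s).2 hs))) hb hn hu huG hg (by simp) h1 h0
    obtain ⟨i, rfl⟩ := hJ o ho
    refine ⟨i, a1, a2, wact_ne0 _ ?_ _ ho (fun j hj => (a3 j hj).2) h0⟩
    exact RootWord.wact_lt Gd hwr (by decide)

include hq₀ hp hp3 hq hK hφ hψ hHG hU hna hnb in
/-- **The conclusion, from the opposite case.** -/
theorem fixed_d4 (hne : H ≠ twistedD4 K q)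
    (hopp : (∀ u ∈ H, u ∈ chevD4.posUnipotent K → H92.ChevFrob.fr chevD4 ψ u = u) →
      (∀ g ∈ H, H92.ChevFrob.fr chevD4 ψ g = g ∨ ∃ q ∈ H86.Graded.Q chevD4 K (H86.Par.top chevD4), sig φ q = q ∧
        ∃ t : K, t ≠ 0 ∧
        g⁻¹ * Elts.xG hD4 (H86.Par.top chevD4) 1 * g = q⁻¹ * Elts.xG hD4 0 t * q) →
      (∀ g ∈ H, g ∈ H86.Par.P K chevD4 → H92.ChevFrob.fr chevD4 ψ g = g) →
      (∀ q ∈ H86.Graded.Q chevD4 K (H86.Par.top chevD4), sig φ q = q →
        (∀ r < chevD4.nroots, car chevD4 (H86.Par.top chevD4) r = 1 →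
          ψ (H86.Graded.kap chevD4 (H86.Par.top chevD4) r (q : Matrix chevD4.Idx chevD4.Idx K)) =
          H86.Graded.kap chevD4 (H86.Par.top chevD4) r (q : Matrix chevD4.Idx chevD4.Idx K)) →
        ∃ e : K, ∃ W ∈ H, W ∈ H86.Graded.Q chevD4 K (H86.Par.top chevD4) ∧ H92.ChevFrob.fr chevD4 ψ W = W ∧
          q = Elts.xG hD4 (H86.Par.top chevD4) e * W) →
      (∀ q ∈ H86.Graded.Q chevD4 K (H86.Par.top chevD4), sig φ q = q → H92.ChevFrob.fr chevD4 ψ q = q → q ∈ H) →
      (∀ s ∈ H, s ∈ chevD4.posUnipotent K → (∀ q ∈ H, q ∈ H86.Graded.Q chevD4 K (H86.Par.top chevD4) →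
        s * q = q * s) → s ∈ H86.Graded.Q chevD4 K (H86.Par.top chevD4)) →
      ∀ g ∈ H, H92.ChevFrob.fr chevD4 ψ g = g) :
    ∀ g ∈ H, H92.ChevFrob.fr chevD4 ψ g = g := by
  have V := ovh hq₀ hp hp3 hq hK hφ hψ hHG hU hna hnb hne
  have he : ∀ r ∈ Lo.flatten, ht chevD4 r = 1 → eps r = 1 := by decide +kernel
  refine over_fixed (D4Twisted.tdata hφ (twisted_le_fix hK hφ)) (W := tw hφ hK) V
    (clsP hK hφ hψ hU hna hnb) rfl rfl he (betaP hU hna hnb) ?_ hlev hcl hopp
  intro w b n u hb _ hn hu huG hg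
  exact key hK hφ hψ hU V.fix_U w b n u hb hn hu huG hg

end

end Cfsg.Agent.H972.TwOv
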